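import Mathlib

/-!
Package AR (pure arithmetic).

* `dvd_sq_add`: `d f = p² + 1` gives `f ≡ 1`; if `d, f > 1` both are `≥ p + 1` and `d f ≥ (p+1)²`.
* `dvd_sq_sub`: `d f = p² - 1` gives `f + 1 ≡ 0`, `f ≥ p - 1`, so `d ≤ p + 1`.
* `pp`: `q` odd divides at most one of `p² - 1`, `p² + 1` (difference `2`), so `q ^ j` divides one
  of them and equals `p + 1` or `p² + 1`, which are even.  `q = 2`: `p² + 1 = 2 · odd`, so
  `2 ^ j ∣ p² - 1`.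
* `exists_l`: `n y + 1 = p⁴` modulo `p`.
* `bnd`: with `p⁴ - 1 = n y`, `y = 2 c z ≥ p - 1` we get `n ≤ (p+1)(p²+1)`.  If `s ≥ 2`:
  `n s = t m ≥ m² (s - 1) ≥ m² s / 2`, so `m² ≤ 2 (p+1)(p²+1) < ((p+1)(p+2)/2)²`.  If `s = 1`:
  `t m = n`, `t ≡ 1`, `t > 1` (as `m < n`); `t = a p + 1`, `y = l p - 1`, `t m y = p⁴ - 1`; unless
  `a = l = 1` we have `t y ≥ (2p+1)(p-1)` and `m ≤ (p+1)(p²+1)/(2p+1) < (p+1)(p+2)/2`.
* `k17`: `17 l - 1` even, dividing `83520`, `l ≤ 16` (as `n ≥ 409`) forces `l = 1`, `n = 5220`,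
  `c ∣ 8`; `s = 1` is impossible as `120 ∤ 5220`; `s ≥ 2`: `5220 s = 120 t ≥ 120 · 120 (s - 1)`.
* `kl`: `l ≤ p - 1` since `n > p² + 1`; `p - 1 ∣ 2 e ∣ 2 c ∣ l p - 1 = l (p-1) + (l-1)` so `l = 1`;
  then `p - 1 ≤ 2 e ≤ 2 c ≤ p - 1`.
* `km`: `(1 + p s)(l p - 1) + 1 ≡ 0 mod p²` gives `l ≡ s mod p`; `1 ≤ l ≤ p - 1`, `1 ≤ s ≤ p + 1`,
  `s ∣ l p - 1`; `s = l` gives `s ∣ 1`; `s = p + 1, l = 1` gives `p + 1 ∣ p - 1`.
* `ti`: `y ≡ -1 mod p²` so `y ≥ p² - 1`, `n ≤ p² + 1`.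
* `yl`: `m (2 f) = p² - 1`, use `dvd_sq_sub`.  `y17`: `p - 2 ∣ p⁴ - 1 ≡ 15`, `p - 2 ∈ {5, 15}`.
-/

set_option autoImplicit false

namespace CfsgLib.LP2

variable {p n c e m s t : ℕ}

theorem ar_me {d : ℕ} (hp : 1 < p) (h1 : d ≡ 1 [MOD p]) : ∃ a, d = a * p + 1 := by
  unfold Nat.ModEq at h1
  rw [Nat.mod_eq_of_lt hp] at h1
  exact ⟨d / p, by rw [← h1, Nat.div_add_mod']⟩

theorem ar_l {y N : ℕ} (hp : 1 < p) (h : n * y + 1 = p * N) (h1 : n ≡ 1 [MOD p]) : ∃ l, 1 ≤ l ∧ y + 1 = l * p := by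
  obtain ⟨a, rfl⟩ := ar_me hp h1
  obtain ⟨l, hl⟩ : p ∣ y + 1 := (Nat.dvd_add_right (Dvd.intro (a * y) rfl)).1 ⟨N, by rw [← h]; ring⟩
  exact ⟨l, Nat.pos_of_ne_zero fun e => by simp [e] at hl, by rw [hl, mul_comm]⟩

theorem ar_four (r : ℕ) : (r + 1) ^ 4 - 1 = r * ((r + 1 + 1) * ((r + 1) ^ 2 + 1)) :=
  Nat.sub_eq_of_eq_add (by ring)

theorem ar_y (hp : 1 < p) (h : 2 * (n * c) ∣ p ^ 4 - 1) (hn : n ≡ 1 [MOD p]) :
    ∃ z l, 1 ≤ l ∧ 2 * c * z + 1 = l * p ∧ n * (2 * c * z) + 1 = p ^ 4 := by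
  obtain ⟨z, hz⟩ := h
  have h0 : 1 ≤ p ^ 4 := Nat.one_le_pow _ _ (by omega)
  have h1 : n * (2 * c * z) + 1 = p ^ 4 := by
    rw [← Nat.sub_add_cancel h0, hz]; ring
  obtain ⟨l, h2, h3⟩ := ar_l (N := p ^ 3) hp (by rw [h1]; ring) hn
  exact ⟨z, l, h2, h3, h1⟩

theorem ar_lt {y l : ℕ} (hp : 1 < p) (h1 : y + 1 = l * p) (h2 : n * y + 1 = p ^ 4) (hl : p + 1 + p ^ 2 ≤ n) : l < p := by
  by_contra hc
  have h3 : p * p ≤ y + 1 := h1 ▸ Nat.mul_le_mul_right p (by omega)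
  have h4 := Nat.mul_le_mul_right y hl
  nlinarith

theorem ar_one {y : ℕ} (hp : 1 < p) (h1 : y + 1 = 1 * p) (h2 : n * y + 1 = p ^ 4) : n = (p + 1) * (p ^ 2 + 1) := by
  rw [one_mul] at h1
  subst h1
  refine Nat.eq_of_mul_eq_mul_left (show 0 < y by omega) ?_
  nlinarith

theorem dvd_sq_add {d : ℕ} (hp : 1 < p) (h : d ∣ p ^ 2 + 1) (h1 : d ≡ 1 [MOD p]) :
    d = 1 ∨ d = p ^ 2 + 1 := by
  obtain ⟨f, hf⟩ := h
  have h2 : f ≡ 1 [MOD p] := by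
    have h3 : d * f ≡ 1 * f [MOD p] := h1.mul_right f
    rw [one_mul, ← hf] at h3
    exact h3.symm.trans (by simp [pow_two, Nat.ModEq])
  obtain ⟨a, rfl⟩ := ar_me hp h1
  obtain ⟨b, rfl⟩ := ar_me hp h2
  rcases a with _ | a
  · simp
  rcases b with _ | b
  · right; simpa using hf.symm
  exfalso
  nlinarith [Nat.zero_le (a * b * p * p), Nat.zero_le (a * p * p), Nat.zero_le (b * p * p), Nat.zero_le (a * p),
    Nat.zero_le (b * p)]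

theorem dvd_sq_sub {d : ℕ} (hp : 1 < p) (h : d ∣ p ^ 2 - 1) (h1 : d ≡ 1 [MOD p]) :
    d = 1 ∨ d = p + 1 := by
  obtain ⟨f, hf⟩ := h
  have h0 : 1 ≤ p ^ 2 := Nat.one_le_pow _ _ (by omega)
  have h2 : d * f + 1 = p * p := by rw [← hf, Nat.sub_add_cancel h0, pow_two]
  obtain ⟨l, h3, h4⟩ := ar_l hp h2 h1
  obtain ⟨a, rfl⟩ := ar_me hp h1
  have h5 : p ≤ f + 1 := by nlinarith
  rcases a with _ | _ | a
  · simp
  · simp
  exfalso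
  nlinarith [Nat.zero_le (a * p * f)]

theorem pp {q j : ℕ} (hp : p.Prime) (h2 : p ≠ 2) (hq : q.Prime) (h : 2 * q ^ j ∣ p ^ 4 - 1)
    (h1 : q ^ j ≡ 1 [MOD p]) : j = 0 ∨ (q = 2 ∧ q ^ j = p + 1) := by
  obtain ⟨k, hk⟩ := hp.odd_of_ne_two h2
  have hA : p ^ 2 - 1 = 4 * k ^ 2 + 4 * k := Nat.sub_eq_of_eq_add (by rw [hk]; ring)
  have hB : p ^ 4 - 1 = (p ^ 2 - 1) * (p ^ 2 + 1) := by
    rw [hA]; exact Nat.sub_eq_of_eq_add (by rw [hk]; ring)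
  have j0 : q ^ j = 1 → j = 0 := fun e => (Nat.pow_eq_one.1 e).resolve_left hq.one_lt.ne'
  by_cases q2 : q = 2
  · subst q2
    have h3 : 2 ^ j ∣ (p ^ 2 - 1) * (2 * (k ^ 2 + k) + 1) :=
      Nat.dvd_of_mul_dvd_mul_left two_pos (by convert h using 1; rw [hB, hA, hk]; ring)
    have h4 := Nat.Coprime.dvd_of_dvd_mul_right (Nat.Coprime.pow_left j (Nat.coprime_two_left.2 (odd_two_mul_add_one _))) h3
    exact (dvd_sq_sub hp.one_lt h4 h1).imp j0 fun e => ⟨rfl, e⟩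
  have ev : ¬ 2 ∣ q ^ j := fun e => q2 ((Nat.prime_dvd_prime_iff_eq Nat.prime_two hq).1 (Nat.prime_two.dvd_of_dvd_pow e)).symm
  have h3 : q ^ j ∣ (p ^ 2 - 1) * (p ^ 2 + 1) := hB ▸ (Dvd.intro_left 2 rfl).trans h
  by_cases hq' : q ∣ p ^ 2 - 1
  · have h4 : ¬ q ∣ p ^ 2 + 1 := fun e => q2 ((Nat.prime_dvd_prime_iff_eq hq Nat.prime_two).1
      ((Nat.dvd_add_right hq').1 (by convert e using 1; rw [hA, hk]; ring)))
    rcases dvd_sq_sub hp.one_lt (((hq.coprime_iff_not_dvd.2 h4).pow_left j).dvd_of_dvd_mul_right h3) h1 with e | e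
    · exact .inl (j0 e)
    · exact absurd ⟨k + 1, by rw [e, hk]; ring⟩ ev
  · rcases dvd_sq_add hp.one_lt (((hq.coprime_iff_not_dvd.2 hq').pow_left j).dvd_of_dvd_mul_left h3) h1 with e | e
    · exact .inl (j0 e)
    · exact absurd ⟨2 * (k ^ 2 + k) + 1, by rw [e, hk]; ring⟩ ev

theorem exists_l {y : ℕ} (hp : 1 < p) (h : n * y + 1 = p ^ 4) (h1 : n ≡ 1 [MOD p]) :
    ∃ l, 1 ≤ l ∧ y + 1 = l * p := by
  exact ar_l (N := p ^ 3) hp (by rw [h]; ring) h1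

theorem bnd (hp : 5 < p) (h : 2 * (n * c) ∣ p ^ 4 - 1) (hn : n ≡ 1 [MOD p]) (hm : m ≡ 1 [MOD p])
    (htm : t * m = n * s) (hs : s ≠ 0) (hi : m * s ≤ t + m) (hl : m < n) :
    2 * m < (p + 1) * (p + 2) ∨ (s = 1 ∧ t = p + 1 ∧ m = p ^ 2 + 1 ∧ n = (p + 1) * (p ^ 2 + 1) ∧
      2 * c ∣ p - 1) := by
  obtain ⟨z, l, h1, h2, h3⟩ := ar_y (by omega) h hn
  obtain ⟨y, hy⟩ : ∃ y, 2 * c * z = y := ⟨_, rfl⟩
  rw [hy] at h2 h3
  obtain ⟨r, rfl⟩ : ∃ r, p = r + 1 := ⟨p - 1, by omega⟩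
  have h4 : n * y = r * ((r + 1 + 1) * ((r + 1) ^ 2 + 1)) := by rw [← ar_four, ← h3]; rfl
  have h5 : r ≤ y := by nlinarith
  have r0 : 0 < r := by omega
  by_contra hcon
  rw [not_or, not_lt] at hcon
  obtain ⟨hc1, hc2⟩ := hcon
  rcases s with _ | _ | s
  · exact hs rfl
  · rw [zero_add, mul_one] at htm
    have h6 : t ≡ 1 [MOD (r + 1)] := by
      have h7 : t * m ≡ t * 1 [MOD (r + 1)] := hm.mul_left t
      rw [mul_one, htm] at h7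
      exact h7.symm.trans hn
    obtain ⟨a, ha⟩ := ar_me (by omega) h6
    have a0 : a ≠ 0 := by rintro rfl; rw [ha] at htm; omega
    by_cases h7 : a = 1 ∧ l = 1
    · obtain ⟨rfl, rfl⟩ := h7
      have h8 := ar_one (by omega) h2 h3
      refine hc2 ⟨rfl, by omega, ?_, h8, z, by omega⟩
      refine Nat.eq_of_mul_eq_mul_left (show 0 < r + 1 + 1 by omega) ?_
      rw [← h8, ← htm, ha, one_mul]
    have h8 : r * (2 * r + 3) ≤ t * y := by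
      by_cases a1 : a = 1
      · have h9 : 2 * (r + 1) ≤ y + 1 := h2 ▸ Nat.mul_le_mul_right _ (by omega)
        subst a1; nlinarith
      · have h9 : 2 * (r + 1) + 1 ≤ t := ha ▸ Nat.add_le_add_right (Nat.mul_le_mul_right _ (by omega)) 1
        nlinarith
    have h9 : m * (2 * r + 3) ≤ (r + 1 + 1) * ((r + 1) ^ 2 + 1) := by
      refine Nat.le_of_mul_le_mul_left ?_ r0
      rw [← h4, ← htm]
      nlinarith
    nlinarith
  · have h6 : n ≤ (r + 1 + 1) * ((r + 1) ^ 2 + 1) := Nat.le_of_mul_le_mul_left (by rw [← h4]; nlinarith) r0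
    have h7 : m * m ≤ 2 * n := by
      refine Nat.le_of_mul_le_mul_left ?_ (show 0 < s + 1 by omega)
      have h8 : m * (s + 1) ≤ t := by nlinarith
      have h9 := Nat.mul_le_mul_right m h8
      nlinarith
    have h8 := Nat.mul_le_mul hc1 hc1
    have h9 : (r + 1 + 1) * ((r + 1 + 1) * ((r + 1 + 2) * (r + 1 + 2))) ≤ (r + 1 + 1) * (8 * ((r + 1) ^ 2 + 1)) := by
      nlinarith
    have h10 := Nat.le_of_mul_le_mul_left h9 (by omega)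
    nlinarith [Nat.mul_le_mul_right (r * r) (show 5 ≤ r by omega)]

theorem k17 (h : 2 * (n * c) ∣ 17 ^ 4 - 1) (hn : n ≡ 1 [MOD 17]) (htm : t * 120 = n * s)
    (hs : s ∣ c) (hi : 120 * s ≤ t + 120) (hl : 120 + 17 ^ 2 ≤ n) : False := by
  obtain ⟨z, l, h1, h2, h3⟩ := ar_y (by omega) h hn
  have h4 := ar_lt (by omega) h2 h3 (by omega)
  have s0 : s ≠ 0 := by
    rintro rfl
    rw [zero_dvd_iff.1 hs] at h3
    omega
  rw [mul_assoc] at h2 h3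
  generalize c * z = w at h2 h3
  have h5 : 2 * w = 17 * l - 1 := by omega
  have h6 : (17 * l - 1) % 2 = 0 := by omega
  rw [h5] at h3
  obtain rfl : n = 5220 := by interval_cases l <;> omega
  omega

theorem kl (hp : 5 < p) (h : 2 * (n * c) ∣ p ^ 4 - 1) (hn : n ≡ 1 [MOD p]) (he : e ∣ c)
    (h1 : p - 1 ∣ 2 * e) (hl : p + 1 + p ^ 2 ≤ n) :
    e = c ∧ 2 * c = p - 1 ∧ n = (p + 1) * (p ^ 2 + 1) := by
  obtain ⟨z, l, h2, h3, h4⟩ := ar_y (by omega) h hn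
  have h5 := ar_lt (by omega) h3 h4 hl
  obtain ⟨r, rfl⟩ : ∃ r, p = r + 1 := ⟨p - 1, by omega⟩
  obtain ⟨l, rfl⟩ : ∃ l', l = l' + 1 := ⟨l - 1, by omega⟩
  rw [Nat.add_sub_cancel] at h1 ⊢
  have h6 := Nat.mul_dvd_mul_left 2 he
  have h7 : r ∣ l := (Nat.dvd_add_right (Dvd.intro (l + 1) rfl)).1 (by
    rw [show r * (l + 1) + l = 2 * c * z by nlinarith]; exact (h1.trans h6).mul_right z)
  obtain rfl : l = 0 := Nat.eq_zero_of_dvd_of_lt h7 (by omega)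
  have h8 : 2 * c ∣ r := ⟨z, by omega⟩
  have h9 := Nat.dvd_antisymm h8 (h1.trans h6)
  have h10 := Nat.dvd_antisymm (h6.trans h8) h1
  exact ⟨by omega, h9, ar_one (by omega) h3 h4⟩

theorem km (hp : 5 < p) (h : 2 * (n * c) ∣ p ^ 4 - 1) (hn : n ≡ 1 + p * s [MOD p ^ 2]) (hs : s ∣ c)
    (h1 : s ≤ p + 1) (hl : p + 1 + p ^ 2 ≤ n) :
    s = 1 ∧ n = (p + 1) * (p ^ 2 + 1) ∧ 2 * c ∣ p - 1 := by
  have hn' : n ≡ 1 [MOD p] := (hn.of_dvd (dvd_pow_self p two_ne_zero)).trans (by simp [Nat.ModEq])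
  obtain ⟨z, l, h2, h3, h4⟩ := ar_y (by omega) h hn'
  have h5 := ar_lt (by omega) h3 h4 hl
  have h6 : s ∣ 2 * c * z := (hs.mul_left 2).mul_right z
  have h7 : (p : ℤ) ∣ l - s := by
    obtain ⟨k, hk⟩ := hn.dvd
    have a3 : ((2 * c * z : ℕ) : ℤ) + 1 = l * p := by exact_mod_cast h3
    have a4 : n * ((2 * c * z : ℕ) : ℤ) + 1 = p ^ 4 := by exact_mod_cast h4
    generalize ((2 * c * z : ℕ) : ℤ) = y at a3 a4
    push_cast at hk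
    refine Int.dvd_of_mul_dvd_mul_left (a := p) (by omega) ⟨p ^ 2 - s * l + k * y, ?_⟩
    linear_combination a4 - (1 + p * s) * a3 + y * hk
  have s0 : s ≠ 0 := by
    rintro rfl
    rw [zero_dvd_iff.1 h6] at h3
    have := Nat.mul_le_mul_right p h2
    omega
  obtain ⟨k, hk⟩ := h7
  have h8 : k = 0 ∨ k = -1 := by
    have a1 : k < 1 := by nlinarith
    have a2 : -2 < k := by nlinarith
    omega
  rcases h8 with rfl | rfl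
  · obtain rfl : l = s := by omega
    obtain rfl : l = 1 := Nat.dvd_one.1 ((Nat.dvd_add_right h6).1 (h3 ▸ Dvd.intro _ rfl))
    exact ⟨rfl, ar_one (by omega) h3 h4, z, by omega⟩
  · obtain rfl : l = 1 := by omega
    have := Nat.le_of_dvd (by omega) h6
    omega

theorem ti (hp : 1 < p) (h : n ∣ p ^ 4 - 1) (hn : n ≡ 1 [MOD p ^ 2]) (hl : 1 < n) :
    n = p ^ 2 + 1 := by
  obtain ⟨y, hy⟩ := h
  have h0 : 1 ≤ p ^ 4 := Nat.one_le_pow _ _ (by omega)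
  have h2 : 1 < p ^ 2 := by nlinarith
  have h1 : n * y + 1 = p ^ 2 * p ^ 2 := by rw [← hy, Nat.sub_add_cancel h0]; ring
  obtain ⟨l, h3, h4⟩ := ar_l h2 h1 hn
  obtain ⟨a, rfl⟩ := ar_me h2 hn
  generalize p ^ 2 = q at *
  have h5 : q ≤ y + 1 := by nlinarith
  rcases a with _ | _ | a
  · omega
  · simp
  exfalso
  nlinarith [Nat.zero_le (a * q * y)]

theorem yl {f : ℕ} (hp : 1 < p) (h : 2 * (m * (p * f)) = p * (p ^ 2 - 1)) (hm : m ≡ 1 [MOD p])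
    (h1 : 1 < m) : m = p + 1 ∧ 2 * f = p - 1 := by
  have h2 : p ^ 2 - 1 = m * (2 * f) := Nat.eq_of_mul_eq_mul_left (show 0 < p by omega) (by rw [← h]; ring)
  obtain rfl := (dvd_sq_sub hp ⟨_, h2⟩ hm).resolve_left h1.ne'
  obtain ⟨r, rfl⟩ : ∃ r, p = r + 1 := ⟨p - 1, by omega⟩
  refine ⟨rfl, Nat.eq_of_mul_eq_mul_left (show 0 < r + 1 + 1 by omega) ?_⟩
  rw [← h2, Nat.add_sub_cancel]
  exact Nat.sub_eq_of_eq_add (by ring)

theorem y17 {f k : ℕ} (hp : 5 < p) (hk : p = 2 ^ k + 1)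
    (h : m * (p * f) = 2 ^ k * ((2 ^ k) ^ 2 - 1)) (hd : m * f ∣ p ^ 4 - 1) (hm : m ≡ 1 [MOD p])
    (h1 : 1 < m) : p = 17 ∧ m = 120 := by
  obtain ⟨r, hr⟩ : ∃ r, 2 ^ k = r + 1 := ⟨2 ^ k - 1, by omega⟩
  rw [hr] at hk h
  subst hk
  have h2 : m * f = (r + 1) * r := Nat.eq_of_mul_eq_mul_left (show 0 < r + 1 + 1 by omega) (by
    rw [show (r + 1) ^ 2 - 1 = r * (r + 2) from Nat.sub_eq_of_eq_add (by ring)] at h
    linarith)
  have h3 : r ∣ 15 := (Nat.dvd_add_right (Dvd.intro (r ^ 3 + 8 * r ^ 2 + 24 * r + 32) rfl)).1 (by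
    rw [show r * (r ^ 3 + 8 * r ^ 2 + 24 * r + 32) + 15 = (r + 1 + 1) ^ 4 - 1 from (Nat.sub_eq_of_eq_add (by ring)).symm]
    exact (Dvd.intro_left _ h2.symm).trans hd)
  have h4 := Nat.le_of_dvd (by norm_num) h3
  have h5 : r = 5 ∨ r = 15 := by
    have : 4 ≤ r := by omega
    interval_cases r <;> omega
  rcases h5 with rfl | rfl
  · exact absurd (Nat.prime_three.dvd_of_dvd_pow (hr ▸ (by norm_num : 3 ∣ 5 + 1))) (by norm_num)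
  · obtain ⟨a, rfl⟩ := ar_me (by norm_num) hm
    have h6 := Nat.le_of_dvd (by norm_num) (Dvd.intro f h2)
    have : a ≤ 14 := by omega
    interval_cases a <;> omega

/-- an odd prime divisor of `p² + 1` -/
theorem exists_r (hp : p.Prime) (h2 : p ≠ 2) :
    ∃ r, r.Prime ∧ r ≠ 2 ∧ r ≠ p ∧ r ∣ p ^ 2 + 1 ∧ ¬ r ∣ p - 1 ∧ ¬ r ∣ p + 1 := by
  obtain ⟨k, hk⟩ := hp.odd_of_ne_two h2
  have h1 := hp.one_lt
  obtain ⟨r, hr, hd⟩ := Nat.exists_prime_and_dvd (n := 2 * (k ^ 2 + k) + 1) (by nlinarith)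
  have r2 : r ≠ 2 := by rintro rfl; omega
  have h3 : r ∣ p ^ 2 + 1 := hd.trans ⟨2, by rw [hk]; ring⟩
  have h4 : ¬ r ∣ (p - 1) * (p + 1) := fun e => r2 ((Nat.prime_dvd_prime_iff_eq hr Nat.prime_two).1
    ((Nat.dvd_add_right e).1 (by convert h3 using 1; rw [hk, Nat.add_sub_cancel]; ring)))
  refine ⟨r, hr, r2, ?_, h3, fun e => h4 (e.mul_right _), fun e => h4 (e.mul_left _)⟩
  rintro rfl
  exact hr.one_lt.ne' (Nat.dvd_one.1 ((Nat.dvd_add_right (dvd_pow_self r two_ne_zero)).1 h3))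

/-- Mersenne primes -/
theorem mers {a : ℕ} (hp : 5 < p) (h : p + 1 = 2 ^ a) :
    3 ≤ a ∧ p % 4 = 3 ∧ ¬ 2 ^ (a + 3) ∣ p ^ 2 * (p ^ 4 - 1) := by
  have h1 : 3 ≤ a := by
    by_contra hc
    have : 2 ^ a ≤ 2 ^ 2 := Nat.pow_le_pow_right two_pos (by omega)
    omega
  have h2 : 4 ∣ p + 1 := h ▸ (pow_dvd_pow 2 (show 2 ≤ a by omega) : 2 ^ 2 ∣ _)
  obtain ⟨k, rfl⟩ : ∃ k, p = 4 * k + 3 := ⟨p / 4, by omega⟩
  refine ⟨h1, by omega, fun e => ?_⟩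
  have h3 : (4 * k + 3) ^ 2 * ((4 * k + 3) ^ 4 - 1) =
      2 ^ a * 4 * ((2 * (2 * k + 1) + 1) ^ 2 * ((2 * k + 1) * (2 * (4 * k ^ 2 + 6 * k + 2) + 1))) := by
    rw [← h, ar_four (4 * k + 2)]; ring
  rw [h3, show 2 ^ (a + 3) = 2 ^ a * 4 * 2 by ring] at e
  exact absurd (Nat.dvd_of_mul_dvd_mul_left (by positivity) e)
    (Odd.not_two_dvd_nat ((odd_two_mul_add_one _).pow.mul ((odd_two_mul_add_one _).mul (odd_two_mul_add_one _))))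

end CfsgLib.LP2
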